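import Mathlib
import Cfsg.Prelude.Def_Sporadic_a
import Cfsg.Agent.Helper29.S3622A
import Cfsg.Agent.Helper29.W12.Ext

set_option autoImplicit false

/-! Uniqueness of S(5,6,12) and sharp 5-transitivity of its automorphism group. -/

namespace Cfsg.Agent.Helper29.W12

open Cfsg.Agent.Helper29.S3622U

variable {α β : Type*} [Fintype α] [DecidableEq α] [Fintype β] [DecidableEq β]

omit [Fintype α] [Fintype β] in
/-- a bijection mapping blocks to blocks between Steiner systems with the same parameters is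
an isomorphism -/
theorem onto_of_map {t k : ℕ} (htk : t ≤ k) {B : Set (Finset α)} {B' : Set (Finset β)}
    (hB : Cfsg.IsSteinerSystem t k B) (hB' : Cfsg.IsSteinerSystem t k B') (e : α ≃ β)
    (he : ∀ C ∈ B, C.image e ∈ B') : (fun b => b.image e) '' B = B' := by
  apply Set.Subset.antisymm
  · rintro _ ⟨C, hC, rfl⟩
    exact he C hC
  · intro C1 hC1
    obtain ⟨S1, hS1, hS1c⟩ := Finset.exists_subset_card_eq
      (by rw [hB'.1 C1 hC1]; exact htk : t ≤ C1.card)
    obtain ⟨C, ⟨hC, hSC⟩, _⟩ := hB.2 (S1.image e.symm)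
      (by rw [Finset.card_image_of_injective _ e.symm.injective, hS1c])
    obtain ⟨C0, _, huniq⟩ := hB'.2 S1 hS1c
    refine ⟨C, hC, ?_⟩
    have h1 := huniq (C.image e) ⟨he C hC, fun y hy => by
      rw [Finset.mem_image]
      exact ⟨e.symm y, hSC (Finset.mem_image_of_mem _ hy), e.apply_symm_apply y⟩⟩
    have h2 := huniq C1 ⟨hC1, hS1⟩
    exact h1.trans h2.symm

omit [DecidableEq α] in
theorem exists_block (hα : Fintype.card α = 12) {B : Set (Finset α)}
    (hB : Cfsg.IsSteinerSystem 5 6 B) : ∃ K, K ∈ B := by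
  obtain ⟨S, _, hS⟩ := Finset.exists_subset_card_eq
    (by rw [Finset.card_univ, hα]; norm_num : 5 ≤ (Finset.univ : Finset α).card)
  obtain ⟨K, ⟨hK, _⟩, _⟩ := hB.2 S hS
  exact ⟨K, hK⟩

theorem iso12 (hα : Fintype.card α = 12) (hβ : Fintype.card β = 12) {B : Set (Finset α)}
    {B' : Set (Finset β)} (hB : Cfsg.IsSteinerSystem 5 6 B)
    (hB' : Cfsg.IsSteinerSystem 5 6 B') : Cfsg.SetSystemIso B B' := by
  obtain ⟨K, hK⟩ := exists_block hα hB
  obtain ⟨K1, hK1⟩ := exists_block hβ hB'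
  have hW : W B K := ⟨hα, hB, hK⟩
  have hW1 : W B' K1 := ⟨hβ, hB', hK1⟩
  obtain ⟨e0, _, h⟩ := exists_iso hW hW1
    (Fintype.equivOfCardEq ((card_X hW).trans (card_X hW1).symm))
  exact ⟨e0, onto_of_map (by norm_num) hB hB' e0 h⟩

/-- a strong form: any two 5-tuples of distinct points of two S(5,6,12) correspond under an
isomorphism -/
theorem iso12_emb (hα : Fintype.card α = 12) (hβ : Fintype.card β = 12) {B : Set (Finset α)}
    {B' : Set (Finset β)} (hB : Cfsg.IsSteinerSystem 5 6 B)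
    (hB' : Cfsg.IsSteinerSystem 5 6 B') (x : Fin 5 ↪ α) (y : Fin 5 ↪ β) :
    ∃ e : α ≃ β, (∀ i, e (x i) = y i) ∧ ∀ C ∈ B, C.image e ∈ B' := by
  classical
  obtain ⟨Hx, ⟨hHx, hxs⟩, _⟩ := hB.2 (Finset.univ.map x) (by simp)
  obtain ⟨Hy, ⟨hHy, hys⟩, _⟩ := hB'.2 (Finset.univ.map y) (by simp)
  have hW : W B Hxᶜ := ⟨hα, hB, compl_mem hα hB hHx⟩
  have hW1 : W B' Hyᶜ := ⟨hβ, hB', compl_mem hβ hB' hHy⟩
  have hxm : ∀ i, x i ∉ Hxᶜ := fun i => by
    rw [Finset.mem_compl, not_not]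
    exact hxs (by simp)
  have hym : ∀ i, y i ∉ Hyᶜ := fun i => by
    rw [Finset.mem_compl, not_not]
    exact hys (by simp)
  let φ1 : X Hxᶜ ≃ X Hyᶜ := Fintype.equivOfCardEq ((card_X hW).trans (card_X hW1).symm)
  have hinj1 : Function.Injective (fun i : Fin 5 => φ1 ⟨x i, hxm i⟩) := by
    intro i j hij
    have := φ1.injective hij
    exact x.injective (congrArg Subtype.val this)
  have hinj2 : Function.Injective (fun i : Fin 5 => (⟨y i, hym i⟩ : X Hyᶜ)) := by
    intro i j hij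
    exact y.injective (congrArg Subtype.val hij)
  obtain ⟨σ, hσ⟩ := Equiv.Perm.exists_smul_eq_embedding
    (⟨_, hinj1⟩ : Fin 5 ↪ X Hyᶜ) ⟨_, hinj2⟩
  obtain ⟨e0, he0, h⟩ := exists_iso hW hW1 (φ1.trans σ)
  refine ⟨e0, fun i => ?_, h⟩
  have h1 := he0 ⟨x i, hxm i⟩
  have h2 := congrArg (fun f : Fin 5 ↪ X Hyᶜ => (f i : β)) hσ
  simp only [Function.Embedding.smul_apply, Function.Embedding.coeFn_mk,
    Equiv.Perm.smul_def] at h2
  rw [h1, Equiv.trans_apply, h2]

theorem five_trans (hα : Fintype.card α = 12) {B : Set (Finset α)}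
    (hB : Cfsg.IsSteinerSystem 5 6 B) (x y : Fin 5 ↪ α) :
    ∃ g : Equiv.Perm α, g ∈ Cfsg.setSystemAut B ∧ ∀ i, g (x i) = y i := by
  obtain ⟨e, he, h⟩ := iso12_emb hα hα hB hB x y
  exact ⟨e, mem_aut h, he⟩

/-- an automorphism fixing five points is trivial -/
theorem sharp12 (hα : Fintype.card α = 12) {B : Set (Finset α)}
    (hB : Cfsg.IsSteinerSystem 5 6 B) {g : Equiv.Perm α} (hg : ∀ C ∈ B, C.image g ∈ B)
    (x : Fin 5 ↪ α) (hfix : ∀ i, g (x i) = x i) : g = 1 := by
  classical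
  obtain ⟨Hx, ⟨hHx, hxs⟩, huniq⟩ := hB.2 (Finset.univ.map x) (by simp)
  have hgH : Hx.image g = Hx := by
    apply huniq
    refine ⟨hg Hx hHx, ?_⟩
    intro a ha
    obtain ⟨i, _, rfl⟩ := Finset.mem_map.1 ha
    rw [← hfix i]
    exact Finset.mem_image_of_mem _ (hxs (by simp))
  have hfixH : ∀ a ∈ Hx, g a = a := by
    intro a ha
    by_cases hax : a ∈ Finset.univ.map x
    · obtain ⟨i, _, rfl⟩ := Finset.mem_map.1 hax
      exact hfix i
    · have h1 : (Hx \ Finset.univ.map x).card = 1 := by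
        rw [Finset.card_sdiff_of_subset hxs, hB.1 Hx hHx, Finset.card_map, Finset.card_univ,
          Fintype.card_fin]
      have hga : g a ∈ Hx \ Finset.univ.map x := by
        rw [Finset.mem_sdiff]
        refine ⟨?_, ?_⟩
        · rw [← hgH]
          exact Finset.mem_image_of_mem _ ha
        · intro hgx
          obtain ⟨i, _, hi⟩ := Finset.mem_map.1 hgx
          rw [← hfix i] at hi
          have : x i = a := g.injective hi
          apply hax
          rw [← this]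
          exact Finset.mem_map_of_mem _ (Finset.mem_univ _)
      exact Finset.card_le_one.1 h1.le _ hga _ (Finset.mem_sdiff.2 ⟨ha, hax⟩)
  have hW : W B Hxᶜ := ⟨hα, hB, compl_mem hα hB hHx⟩
  ext a
  exact rigid hW g hg (fun a ha => hfixH a (by
    rw [Finset.mem_compl, not_not] at ha
    exact ha)) a

end Cfsg.Agent.Helper29.W12
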