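import Mathlib
import Cfsg.Prelude.Def_Sporadic_a
import Cfsg.Agent.Helper29.GU.SteinerCode
import Cfsg.Agent.Helper29.GU.S4723Iso
import Cfsg.Agent.Helper29.W12.Main

set_option autoImplicit false

/-! S(4,5,11): the one-point extension to an S(5,6,12), uniqueness and sharp
4-transitivity of the automorphism group. -/

namespace Cfsg.Agent.Helper29.W12

open Cfsg.Agent.Helper2.Steiner Cfsg.Agent.Helper29.S3622U Cfsg.Agent.Helper29.GU

variable {X X1 : Type*} [Fintype X] [DecidableEq X] [Fintype X1] [DecidableEq X1]

/-- the one-point extension of an S(4,5,11): blocks with the new point added, and their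
complements -/
def ext12 (D : Set (Finset X)) : Set (Finset (Option X)) :=
  {c | ∃ k ∈ D, c = Finset.insertNone k ∨ c = (Finset.insertNone k)ᶜ}

theorem count11 (hX : Fintype.card X = 11) {D : Set (Finset X)}
    (hD : Cfsg.IsSteinerSystem 4 5 D) (S : Finset X) (hS : S.card = 5) :
    ((blocks D).filter (fun k => (S ∩ k).card = 0 ∨ (S ∩ k).card = 5)).card = 1 := by
  have m0 := M_eq hD S 0 (by norm_num)
  have m1 := M_eq hD S 1 (by norm_num)
  have m2 := M_eq hD S 2 (by norm_num)
  have m3 := M_eq hD S 3 (by norm_num)
  have m4 := M_eq hD S 4 (by norm_num)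
  rw [hX, hS] at m0 m1 m2 m3 m4
  have c0 : Nat.choose (5 - 0) (4 - 0) = 5 := by decide
  have c1 : Nat.choose (5 - 1) (4 - 1) = 4 := by decide
  have c2 : Nat.choose (5 - 2) (4 - 2) = 3 := by decide
  have c3 : Nat.choose (5 - 3) (4 - 3) = 2 := by decide
  have c4 : Nat.choose (5 - 4) (4 - 4) = 1 := by decide
  have r0 : Nat.choose 5 0 * Nat.choose (11 - 0) (4 - 0) = 330 := by decide
  have r1 : Nat.choose 5 1 * Nat.choose (11 - 1) (4 - 1) = 600 := by decide
  have r2 : Nat.choose 5 2 * Nat.choose (11 - 2) (4 - 2) = 360 := by decide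
  have r3 : Nat.choose 5 3 * Nat.choose (11 - 3) (4 - 3) = 80 := by decide
  have r4 : Nat.choose 5 4 * Nat.choose (11 - 4) (4 - 4) = 5 := by decide
  rw [c0, r0] at m0
  rw [c1, r1] at m1
  rw [c2, r2] at m2
  rw [c3, r3] at m3
  rw [c4, r4] at m4
  have hterm : ∀ c ∈ blocks D,
      (if (S ∩ c).card = 0 ∨ (S ∩ c).card = 5 then 1 else 0) + ((S ∩ c).card).choose 1
        + ((S ∩ c).card).choose 3
        = ((S ∩ c).card).choose 0 + ((S ∩ c).card).choose 2 + ((S ∩ c).card).choose 4 := by
    intro c _
    have hle : (S ∩ c).card ≤ 5 := hS ▸ Finset.card_le_card Finset.inter_subset_left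
    generalize (S ∩ c).card = j at hle ⊢
    interval_cases j <;> decide
  have hsum := Finset.sum_congr (rfl : blocks D = blocks D) hterm
  simp only [Finset.sum_add_distrib] at hsum
  rw [← Finset.card_filter] at hsum
  omega

omit [Fintype X] in
theorem card_eraseNone_of_mem {S : Finset (Option X)} (hn : none ∈ S) :
    (Finset.eraseNone S).card + 1 = S.card := by
  have := Finset.card_insertNone (Finset.eraseNone S)
  rw [Finset.insertNone_eraseNone, Finset.insert_eq_of_mem hn] at this
  omega

omit [Fintype X] in
theorem card_eraseNone_of_notMem {S : Finset (Option X)} (hn : none ∉ S) :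
    (Finset.eraseNone S).card = S.card := by
  have := Finset.card_insertNone (Finset.eraseNone S)
  rw [Finset.insertNone_eraseNone, Finset.card_insert_of_notMem hn] at this
  omega

theorem steiner_ext12 (hX : Fintype.card X = 11) {D : Set (Finset X)}
    (hD : Cfsg.IsSteinerSystem 4 5 D) : Cfsg.IsSteinerSystem 5 6 (ext12 D) := by
  classical
  constructor
  · rintro c ⟨k, hk, rfl | rfl⟩
    · rw [Finset.card_insertNone, hD.1 k hk]
    · rw [Finset.card_compl, Fintype.card_option, hX, Finset.card_insertNone, hD.1 k hk]
  · intro S hS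
    by_cases hn : none ∈ S
    · have hS' : (Finset.eraseNone S).card = 4 := by
        have := card_eraseNone_of_mem hn
        omega
      obtain ⟨k, ⟨hk, hsub⟩, huniq⟩ := hD.2 _ hS'
      refine ⟨Finset.insertNone k, ⟨⟨k, hk, Or.inl rfl⟩, ?_⟩, ?_⟩
      · intro o ho
        rcases o with _ | a
        · exact Finset.none_mem_insertNone
        · exact Finset.some_mem_insertNone.2 (hsub (Finset.mem_eraseNone.2 ho))
      · rintro c ⟨⟨k', hk', rfl | rfl⟩, hSc⟩
        · have : k' = k := huniq k' ⟨hk', fun a ha =>
            Finset.some_mem_insertNone.1 (hSc (Finset.mem_eraseNone.1 ha))⟩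
          rw [this]
        · exfalso
          have := hSc hn
          rw [Finset.mem_compl] at this
          exact this Finset.none_mem_insertNone
    · have hS' : (Finset.eraseNone S).card = 5 := by
        rw [card_eraseNone_of_notMem hn, hS]
      have hcount := count11 hX hD _ hS'
      obtain ⟨k, hk⟩ := Finset.card_eq_one.1 hcount
      have hkm : k ∈ (blocks D).filter
          (fun k => (Finset.eraseNone S ∩ k).card = 0 ∨ (Finset.eraseNone S ∩ k).card = 5) := by
        rw [hk]
        exact Finset.mem_singleton_self k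
      have hkm' := hkm
      rw [Finset.mem_filter, mem_blocks] at hkm'
      have key : ∀ c ∈ ext12 D, S ⊆ c →
          (c = Finset.insertNone k ∧ (Finset.eraseNone S ∩ k).card = 5) ∨
          (c = (Finset.insertNone k)ᶜ ∧ (Finset.eraseNone S ∩ k).card = 0) := by
        rintro c ⟨k', hk', rfl | rfl⟩ hSc
        · left
          have h5 : (Finset.eraseNone S ∩ k').card = 5 := by
            rw [Finset.inter_eq_left.2, hS']
            intro a ha
            exact Finset.some_mem_insertNone.1 (hSc (Finset.mem_eraseNone.1 ha))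
          have : k' ∈ (blocks D).filter (fun k => (Finset.eraseNone S ∩ k).card = 0 ∨
              (Finset.eraseNone S ∩ k).card = 5) :=
            Finset.mem_filter.2 ⟨mem_blocks.2 hk', Or.inr h5⟩
          rw [hk, Finset.mem_singleton] at this
          rw [this] at h5
          exact ⟨by rw [this], h5⟩
        · right
          have h0 : (Finset.eraseNone S ∩ k').card = 0 := by
            rw [Finset.card_eq_zero, Finset.eq_empty_iff_forall_notMem]
            intro a ha
            rw [Finset.mem_inter, Finset.mem_eraseNone] at ha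
            have := hSc ha.1
            rw [Finset.mem_compl] at this
            exact this (Finset.some_mem_insertNone.2 ha.2)
          have : k' ∈ (blocks D).filter (fun k => (Finset.eraseNone S ∩ k).card = 0 ∨
              (Finset.eraseNone S ∩ k).card = 5) :=
            Finset.mem_filter.2 ⟨mem_blocks.2 hk', Or.inl h0⟩
          rw [hk, Finset.mem_singleton] at this
          rw [this] at h0
          exact ⟨by rw [this], h0⟩
      rcases hkm'.2 with h0 | h5
      · refine ⟨(Finset.insertNone k)ᶜ, ⟨⟨k, hkm'.1, Or.inr rfl⟩, ?_⟩, ?_⟩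
        · intro o ho
          rw [Finset.mem_compl]
          intro hok
          rcases o with _ | a
          · exact hn ho
          · have : a ∈ Finset.eraseNone S ∩ k :=
              Finset.mem_inter.2 ⟨Finset.mem_eraseNone.2 ho, Finset.some_mem_insertNone.1 hok⟩
            rw [Finset.card_eq_zero.1 h0] at this
            simp at this
        · rintro c ⟨hc, hSc⟩
          rcases key c hc hSc with ⟨_, h5⟩ | ⟨hc', _⟩
          · omega
          · exact hc'
      · refine ⟨Finset.insertNone k, ⟨⟨k, hkm'.1, Or.inl rfl⟩, ?_⟩, ?_⟩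
        · intro o ho
          rcases o with _ | a
          · exact absurd ho hn
          · have hsub : Finset.eraseNone S ∩ k = Finset.eraseNone S :=
              Finset.eq_of_subset_of_card_le Finset.inter_subset_left (by rw [h5, hS'])
            have : a ∈ Finset.eraseNone S ∩ k := by
              rw [hsub]
              exact Finset.mem_eraseNone.2 ho
            exact Finset.some_mem_insertNone.2 (Finset.mem_inter.1 this).2
        · rintro c ⟨hc, hSc⟩
          rcases key c hc hSc with ⟨hc', _⟩ | ⟨_, h0⟩
          · exact hc'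
          · omega

omit [Fintype X] [DecidableEq X] in
theorem cons_injective (z : Fin 4 ↪ X) : Function.Injective
    (Fin.cons (none : Option X) (fun i => (some (z i) : Option X)) : Fin 5 → Option X) := by
  rw [Fin.cons_injective_iff]
  refine ⟨?_, ?_⟩
  · rintro ⟨i, hi⟩
    exact Option.some_ne_none _ hi
  · intro i j h
    exact z.injective (Option.some_injective _ h)

theorem iso11_emb (hX : Fintype.card X = 11) (hX1 : Fintype.card X1 = 11) {D : Set (Finset X)}
    {D1 : Set (Finset X1)} (hD : Cfsg.IsSteinerSystem 4 5 D)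
    (hD1 : Cfsg.IsSteinerSystem 4 5 D1) (x : Fin 4 ↪ X) (y : Fin 4 ↪ X1) :
    ∃ e : X ≃ X1, (∀ i, e (x i) = y i) ∧ ∀ k ∈ D, k.image e ∈ D1 := by
  classical
  obtain ⟨e, he, h⟩ := iso12_emb (by rw [Fintype.card_option, hX])
    (by rw [Fintype.card_option, hX1]) (steiner_ext12 hX hD) (steiner_ext12 hX1 hD1)
    ⟨_, cons_injective x⟩ ⟨_, cons_injective y⟩
  have h0 : e none = none := he 0
  have hi : ∀ i : Fin 4, e (some (x i)) = some (y i) := fun i => he i.succ
  refine ⟨e.removeNone, ?_, ?_⟩
  · intro i
    apply Option.some_injective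
    rw [Equiv.removeNone_some e ⟨_, hi i⟩, hi i]
  · intro k hk
    have h1 := h (Finset.insertNone k) ⟨k, hk, Or.inl rfl⟩
    rw [image_insertNone e h0 k] at h1
    obtain ⟨k1, hk1, h2 | h2⟩ := h1
    · have : k.image e.removeNone = k1 := by
        have := congrArg Finset.eraseNone h2
        rw [Finset.eraseNone_insertNone, Finset.eraseNone_insertNone] at this
        exact this
      rw [this]
      exact hk1
    · exfalso
      have hmem : (none : Option X1) ∈ (Finset.insertNone k1)ᶜ := by
        rw [← h2]
        exact Finset.none_mem_insertNone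
      rw [Finset.mem_compl] at hmem
      exact hmem Finset.none_mem_insertNone

theorem iso11 (hX : Fintype.card X = 11) (hX1 : Fintype.card X1 = 11) {D : Set (Finset X)}
    {D1 : Set (Finset X1)} (hD : Cfsg.IsSteinerSystem 4 5 D)
    (hD1 : Cfsg.IsSteinerSystem 4 5 D1) : Cfsg.SetSystemIso D D1 := by
  obtain ⟨x⟩ : Nonempty (Fin 4 ↪ X) :=
    Function.Embedding.nonempty_of_card_le (by rw [Fintype.card_fin, hX]; norm_num)
  obtain ⟨y⟩ : Nonempty (Fin 4 ↪ X1) :=
    Function.Embedding.nonempty_of_card_le (by rw [Fintype.card_fin, hX1]; norm_num)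
  obtain ⟨e, _, h⟩ := iso11_emb hX hX1 hD hD1 x y
  exact ⟨e, onto_of_map (by norm_num) hD hD1 e h⟩

theorem four_trans11 (hX : Fintype.card X = 11) {D : Set (Finset X)}
    (hD : Cfsg.IsSteinerSystem 4 5 D) (x y : Fin 4 ↪ X) :
    ∃ g : Equiv.Perm X, g ∈ Cfsg.setSystemAut D ∧ ∀ i, g (x i) = y i := by
  obtain ⟨e, he, h⟩ := iso11_emb hX hX hD hD x y
  exact ⟨e, mem_aut h, he⟩

theorem sharp11 (hX : Fintype.card X = 11) {D : Set (Finset X)}
    (hD : Cfsg.IsSteinerSystem 4 5 D) {g : Equiv.Perm X} (hg : ∀ k ∈ D, k.image g ∈ D)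
    (x : Fin 4 ↪ X) (hfix : ∀ i, g (x i) = x i) : g = 1 := by
  classical
  have h0 : g.optionCongr none = none := rfl
  have himg : ∀ k : Finset X,
      (Finset.insertNone k).image g.optionCongr = Finset.insertNone (k.image g) := by
    intro k
    rw [image_insertNone g.optionCongr h0 k, Equiv.removeNone_optionCongr]
  have hblocks : ∀ C ∈ ext12 D, C.image g.optionCongr ∈ ext12 D := by
    rintro C ⟨k, hk, rfl | rfl⟩
    · exact ⟨k.image g, hg k hk, Or.inl (himg k)⟩
    · refine ⟨k.image g, hg k hk, Or.inr ?_⟩
      rw [← himg k, ← compl_image_compl g.optionCongr (Finset.insertNone k), compl_compl]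
  have h1 := sharp12 (by rw [Fintype.card_option, hX]) (steiner_ext12 hX hD) hblocks
    ⟨_, cons_injective x⟩ (by
      intro i
      refine Fin.cases ?_ (fun j => ?_) i
      · rfl
      · show g.optionCongr (some (x j)) = some (x j)
        rw [Equiv.optionCongr_apply, Option.map_some, hfix j])
  ext a
  have h2 := congrArg (fun σ : Equiv.Perm (Option X) => σ (some a)) h1
  simp only [Equiv.optionCongr_apply, Option.map_some, Equiv.Perm.coe_one, id_eq] at h2
  exact Option.some_injective _ h2

end Cfsg.Agent.Helper29.W12
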